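import Cfsg.Agent.H378.WL.Tool
import Cfsg.Agent.H76.RG.High
import Cfsg.Agent.H378.Eng.Fin

/-!
# S3509: tables for the centralisers of elements of prime order, small `q` (helper106)

`T : Dat` (simply laced), `M` the matrix of `θ` for a representative of a class of the Weyl group, `B` an eigenfunctional of `θ` mod
`ℓ`, `phi` the roots killed by `B`.
-/

set_option autoImplicit false
set_option linter.unusedSectionVars false

namespace Cfsg.Agent.H106.QT

open CoxeterSystem Cfsg Cfsg.Lie Cfsg.Lie.ChevalleyDatum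
open Cfsg.Agent.ChevalleyStructure Cfsg.Agent.ChevalleyStructure.Elts Cfsg.Agent.ChevalleyStructure.CoxeterGeom
  Cfsg.Agent.ChevalleyStructure.CoxeterGeomTypes Cfsg.Agent.ChevalleyStructure.NPerm
open Cfsg.Agent.Tits.Roots Cfsg.Agent.Tits.Core Cfsg.Agent.Nodes Cfsg.Agent.Nodes.Reps Cfsg.Agent.Nodes.RGDChev
  Cfsg.Agent.Nodes.Coroot Cfsg.Agent.KFacts.RgdSL
open Cfsg.Agent.H378.Eng Cfsg.Agent.H378.WL Cfsg.Agent.H165.WL Cfsg.Agent.H76.RG Cfsg.Agent.H460.OT

/-! ### computations -/

/-- the positive roots killed by `B` -/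
def phi (T : Dat) (ℓ : ℕ) (B : Vc) : List ℕ :=
  (List.range T.rts.length).filter fun r => dot (T.gam r) B % (ℓ : ℤ) == 0

/-- the sum of `n` iterates -/
def osum (M : List Vc) : ℕ → Vc → Vc
  | 0, _ => []
  | n + 1, v => vadd v (osum M n (lc v M))

/-- `M` maps the roots of `Q` to roots of `±Q` -/
def stab (T : Dat) (M : List Vc) (Q : List ℕ) : Bool :=
  Q.all fun s => Q.any fun t => veq (lc (T.gam s) M) (T.gam t) || veq (lc (T.gam s) M) (vsm (-1) (T.gam t))

/-- `Q` is closed under adjacency in `P` -/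
def clo (T : Dat) (P Q : List ℕ) : Bool := Q.all fun s => P.contains s && P.all fun t => !(adj T s t) || Q.contains t

/-- the number of the neighbours -/
def cnt (T : Dat) (P : List ℕ) (s : ℕ) : ℕ := (P.filter fun t => adj T s t).length

/-- `Q` is a good component with at least `j` neighbours -/
def good (T : Dat) (M : List Vc) (P Q : List ℕ) (j : ℕ) : Bool :=
  conn T Q (Q.getLastD 0) && stab T M Q && clo T P Q && Q.all fun s => Nat.ble j (cnt T P s)

/-- a component with at least six neighbours -/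
def good6 (T : Dat) (M : List Vc) (P : List ℕ) : Bool :=
  good T M P (P.filter fun s => Nat.ble 6 (cnt T P s)) 6

/-- `M` fixes the roots of `P`, and there is a component with at least two neighbours -/
def good2 (T : Dat) (M : List Vc) (P : List ℕ) : Bool :=
  (P.all fun s => veq (lc (T.gam s) M) (T.gam s)) &&
    good T M P (P.filter fun t => t == P.getLastD 0 || adj T (P.getLastD 0) t) 2

/-- data for a prime -/
structure Ent where
  ℓ : ℕ
  F : List ℕ
  Bs : List Vc
  C : List Vc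

/-- data for a class -/
structure Cls where
  T : ℕ
  ad : List Vc
  n : ℕ
  Z : List ℕ
  es : List Ent

/-- `M - q` -/
def mq (l : ℕ) (M : List Vc) (q : ℤ) : List Vc := (List.range l).map fun k => vadd (M.getD k []) (vsm (-q) (bv k))

/-- all entries divisible -/
def modz (ℓ : ℕ) (v : Vc) : Bool := v.all fun x => x % (ℓ : ℤ) == 0

/-- all vectors with entries `< ℓ` -/
def allc (ℓ : ℕ) : ℕ → Vc → (Vc → Bool) → Bool
  | 0, acc, f => f acc
  | d + 1, acc, f => (List.range ℓ).all fun c => allc ℓ d ((c : ℤ) :: acc) f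

/-- the check of a prime -/
def chkE (T : Dat) (q : ℤ) (M : List Vc) (Z : List ℕ) (bad : ℕ → List ℕ → Bool) (e : Ent) : Bool :=
  ((List.range T.l).all fun k => modz e.ℓ (vadd (lc (e.C.getD k []) (mq T.l M q))
    (vadd (vsm (-1) (bv k)) (lc (e.Bs.map fun v => v.getD k 0) (e.F.map bv))))) &&
  (e.F.all fun f => Nat.blt f T.l) && (e.Bs.length == e.F.length) &&
  allc e.ℓ e.Bs.length [] fun c => modz e.ℓ c ||
    (let P := phi T e.ℓ (lc c e.Bs)
     (P.any fun s => Z.contains s) || good6 T M P || good2 T M P || bad e.ℓ P)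

/-- the check of a class -/
def chkCl (T : Dat) (q : ℤ) (M : List Vc) (bad : ℕ → List ℕ → Bool) (c : Cls) : Bool :=
  ((List.range T.l).all fun k => veq (lc (c.ad.getD k []) (mq T.l M q)) (vsm c.T (bv k))) &&
  ((c.es.map fun e => e.ℓ).prod ^ 6 % c.T == 0) && (Nat.blt 0 c.n) &&
  (c.es.all fun e => [2, 3, 5, 7, 11, 13, 17, 19, 31, 73].contains e.ℓ) &&
  (c.Z.all fun s => Nat.blt s T.rts.length && nz (osum M c.n (T.gam s))) &&
  c.es.all fun e => chkE T q M c.Z bad e

/-- the pairings of different positive roots are `0`, `1`, `-1` -/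
def chkD (T : Dat) : Bool := (List.range T.rts.length).all fun s => (List.range T.rts.length).all fun t =>
  s == t || (dot (T.cor s) (T.gam t)).natAbs.ble 1

/-! ### the meaning -/

section Sem

variable {D : ChevalleyDatum} {l : ℕ} {M : CoxeterMatrix (Fin l)} (hp : IsType D l M) {W : Type*} [Group W] [Finite W]
  (cs : CoxeterSystem M W) {T : Dat} (hT : T.l = l) (hA : RowOK (cartanOf D l) T) (hR : T.chkR = true)
  (hn : nrm T = true) (hD : chkD T = true) (hs : SL cs hp.isCartan)

include hT hA hR hn in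
/-- the functionals of the table are the coroots -/
theorem cor_cpr {r : ℕ} (hr : r < T.rts.length) (x : Fin l → ℤ) :
    dotF l (T.cor r) x = cpr cs hp.isCartan x (toF l (T.gam r)) := by
  have := Fintype.ofFinite W
  obtain ⟨w, hw⟩ := exists_elt cs hp.isCartan hT hA hR r hr
  have hroot := root_gam cs hp.isCartan hT hA hR r hr
  have h2 : dotF l (T.cor r) (toF l (T.gam r)) = 2 := by
    rw [dotF_toF (hT ▸ cor_length' hR r)]
    unfold nrm at hn
    simp only [List.all_eq_true, beq_iff_eq] at hn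
    exact hn r (List.mem_range.2 hr)
  symm
  apply cpr_eq_of_form cs hp.isCartan hroot
  have h3 := form_rep cs hp.isCartan w x (toF l (T.gam r))
  have e1 : rep cs hp.isCartan w (toF l (T.gam r)) = -toF l (T.gam r) := by
    rw [hw, h2, two_smul]; abel
  rw [e1, hw, form_neg_right, form_sub_left, form_smul_left] at h3
  linarith

include hT hA hR hn in
theorem dot_cpr {s t : ℕ} (hs' : s < T.rts.length) :
    dot (T.cor s) (T.gam t) = cpr cs hp.isCartan (toF l (T.gam t)) (toF l (T.gam s)) := by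
  rw [← cor_cpr hp cs hT hA hR hn hs', dotF_toF (hT ▸ cor_length' hR s)]

include hT hA hR hn in
theorem adj_cpr {s t : ℕ} (h1 : s < T.rts.length) (h : adj T s t = true) :
    cpr cs hp.isCartan (toF l (T.gam t)) (toF l (T.gam s)) = 1 ∨
      cpr cs hp.isCartan (toF l (T.gam t)) (toF l (T.gam s)) = -1 := by
  unfold adj at h
  simp only [Bool.and_eq_true, Bool.or_eq_true, beq_iff_eq] at h
  rw [← dot_cpr hp cs hT hA hR hn h1]
  exact h.1

include hT hA hR hn hs in
theorem adj_of_cpr {s t : ℕ} (h1 : s < T.rts.length) (h2 : t < T.rts.length)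
    (h : cpr cs hp.isCartan (toF l (T.gam t)) (toF l (T.gam s)) = 1 ∨
      cpr cs hp.isCartan (toF l (T.gam t)) (toF l (T.gam s)) = -1) : adj T s t = true := by
  unfold adj
  simp only [Bool.and_eq_true, Bool.or_eq_true, beq_iff_eq]
  rw [dot_cpr hp cs hT hA hR hn h1, dot_cpr hp cs hT hA hR hn h2]
  exact ⟨h, hs _ _ (root_gam cs hp.isCartan hT hA hR s h1) (root_gam cs hp.isCartan hT hA hR t h2)⟩

include hp cs hT hA hR hn hD in
/-- different roots of the table -/
theorem gam_ne {s t : ℕ} (h1 : s < T.rts.length) (h2 : t < T.rts.length)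
    (h : toF l (T.gam s) = toF l (T.gam t) ∨ toF l (T.gam s) = -toF l (T.gam t)) : s = t := by
  unfold chkD at hD
  simp only [List.all_eq_true, Bool.or_eq_true, beq_iff_eq] at hD
  rcases hD t (List.mem_range.2 h2) s (List.mem_range.2 h1) with h3 | h3
  · exact h3.symm
  exfalso
  have h4 : (dot (T.cor t) (T.gam s)).natAbs ≤ 1 := by
    rw [Nat.ble_eq] at h3
    exact h3
  rw [dot_cpr hp cs hT hA hR hn h2] at h4
  have hroot := root_gam cs hp.isCartan hT hA hR t h2
  rcases h with h | h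
  · rw [h, cpr_self cs _ hroot] at h4
    norm_num at h4
  · rw [h, cpr_neg cs _ _ hroot, cpr_self cs _ hroot] at h4
    norm_num at h4

/-- the roots `a` with `v a` in `±P` -/
def InP (T : Dat) (v : W) (P : List ℕ) (a : Fin l → ℤ) : Prop :=
  ∃ s ∈ P, rep cs hp.isCartan v a = toF l (T.gam s) ∨ rep cs hp.isCartan v a = -toF l (T.gam s)

variable {hp cs}

include hT hA hR in
theorem InP.root {v : W} {P : List ℕ} (hP : ∀ s ∈ P, s < T.rts.length) {a : Fin l → ℤ} (h : InP hp cs T v P a) :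
    IsRoot cs hp.isCartan a := by
  obtain ⟨s, hs', h1⟩ := h
  have h2 := root_gam cs hp.isCartan hT hA hR s (hP s hs')
  have h3 : a = rep cs hp.isCartan v⁻¹ (rep cs hp.isCartan v a) := (rep_inv_apply cs hp.isCartan v a).symm
  rw [h3]
  rcases h1 with h1 | h1
  · rw [h1]; exact h2.act _
  · rw [h1]; exact h2.neg.act _

include hT hA hR hn hD hs in
/-- **A good component gives a fixed root.** -/
theorem good_out {S : Set (Fin l → ℤ)} {θ : (Fin l → ℤ) ≃+ (Fin l → ℤ)} (hS : RSet cs hp.isCartan S)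
    (hθ : TSet cs hp.isCartan S θ) {v : W} {Mx : List Vc} (hM : Mx.length ≤ l)
    (hv : ∀ x, rep cs hp.isCartan v (θ (rep cs hp.isCartan v⁻¹ x)) = lin l Mx x)
    {P Q : List ℕ} {j : ℕ} (hP : ∀ s ∈ P, s < T.rts.length) (hnd : P.Nodup)
    (hPS : ∀ a, a ∈ S ↔ InP hp cs T v P a) (hg : good T Mx P Q j = true) :
    ∃ β ∈ S, 0 ≤ β ∧ θ β = β ∧ j ≤ nb cs hp.isCartan S β ∧ ∀ a ∈ S, 0 ≤ a → ¬ IsRoot cs hp.isCartan (β + a) := by
  have hv' : ∀ x, rep cs hp.isCartan v (θ x) = lin l Mx (rep cs hp.isCartan v x) := by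
    intro x
    rw [← hv, rep_inv_apply]
  unfold good stab clo at hg
  simp only [Bool.and_eq_true] at hg
  obtain ⟨⟨⟨h1, h2⟩, h3⟩, h4⟩ := hg
  simp only [List.all_eq_true, Bool.and_eq_true, List.any_eq_true, Bool.or_eq_true, List.contains_iff_mem,
    Bool.not_eq_true'] at h2 h3 h4
  have hQP : ∀ s ∈ Q, s ∈ P := fun s hs' => (h3 s hs').1
  have hQ : ∀ s ∈ Q, s < T.rts.length := fun s hs' => hP s (hQP s hs')
  obtain ⟨β, ⟨s, hsQ, hβs⟩, hβ0, hβθ, hβtop⟩ := high (Ψ := {a | InP hp cs T v Q a}) hS hθ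
    (fun a ⟨s, hs', h5⟩ => (hPS a).2 ⟨s, hQP s hs', h5⟩)
    (by
      refine ⟨rep cs hp.isCartan v⁻¹ (toF l (T.gam (Q.getLastD 0))), Q.getLastD 0, (conn_two h1).1, Or.inl ?_⟩
      rw [rep_apply_inv])
    (by
      rintro a ⟨s, hs', h5⟩ b hb hc
      obtain ⟨t, ht, h6⟩ := (hPS b).1 hb
      have rs := root_gam cs hp.isCartan hT hA hR s (hQ s hs')
      have rt := root_gam cs hp.isCartan hT hA hR t (hP t ht)
      have ra : IsRoot cs hp.isCartan a := hS.root a ((hPS a).2 ⟨s, hQP s hs', h5⟩)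
      rw [← cpr_rep cs hp.isCartan v b ra] at hc
      have hc' : cpr cs hp.isCartan (toF l (T.gam t)) (toF l (T.gam s)) ≠ 0 := by
        rcases h5 with h5 | h5 <;> rcases h6 with h6 | h6 <;> rw [h5, h6] at hc
        · exact hc
        · rwa [cpr_neg cs _ _ rs, neg_ne_zero] at hc
        · rwa [cpr_neg_right cs _ _ rs, neg_ne_zero] at hc
        · rwa [cpr_neg_right cs _ _ rs, cpr_neg cs _ _ rs, neg_neg] at hc
      rcases hs.cases rt rs with ⟨e, -⟩ | ⟨e, -⟩ | ⟨-, -, h7, h8⟩
      · exact ⟨s, hs', by rwa [← e]⟩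
      · refine ⟨s, hs', ?_⟩
        rw [e, neg_neg] at h6
        exact h6.symm
      · have h9 := adj_of_cpr hp cs hT hA hR hn hs (hQ s hs') (hP t ht) (by omega)
        rcases (h3 s hs').2 t ht with h10 | h10
        · rw [h9] at h10
          exact absurd h10 (by decide)
        · exact ⟨t, h10, h6⟩)
    (by
      rintro a ⟨s, hs', h5⟩ b ⟨t, ht, h6⟩
      have ha : a ∈ {a | InP hp cs T v Q a} := ⟨s, hs', h5⟩
      have key := conn_ind hQ h1 (B := fun s => ∀ x, (rep cs hp.isCartan v x = toF l (T.gam s) ∨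
          rep cs hp.isCartan v x = -toF l (T.gam s)) →
          Relation.ReflTransGen (fun x y => y ∈ {a | InP hp cs T v Q a} ∧ cpr cs hp.isCartan y x ≠ 0) a x)
        (by
          intro s hs1 t ht1 hst hB x hx
          have rs := root_gam cs hp.isCartan hT hA hR s (hQ s hs1)
          have rt := root_gam cs hp.isCartan hT hA hR t (hQ t ht1)
          refine Relation.ReflTransGen.tail (hB (rep cs hp.isCartan v⁻¹ (toF l (T.gam s))) (Or.inl ?_)) ⟨⟨t, ht1, hx⟩, ?_⟩
          · rw [rep_apply_inv]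
          · rw [← cpr_rep cs hp.isCartan v x (rs.act _), rep_apply_inv]
            have h7 := adj_cpr hp cs hT hA hR hn (hQ s hs1) hst
            rcases hx with hx | hx
            · rw [hx]; omega
            · rw [hx, cpr_neg cs _ _ rs]; omega)
        hs' (by
          intro x hx
          have rs := root_gam cs hp.isCartan hT hA hR s (hQ s hs')
          have ra : IsRoot cs hp.isCartan a := InP.root (hp := hp) (cs := cs) hT hA hR hQ ⟨s, hs', h5⟩
          have hinj : ∀ y z, rep cs hp.isCartan v y = rep cs hp.isCartan v z → y = z := by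
            intro y z h
            rw [← rep_inv_apply cs hp.isCartan v y, h, rep_inv_apply]
          have hx' : x = a ∨ x = -a := by
            rcases h5 with h5 | h5 <;> rcases hx with hx | hx
            · exact Or.inl (hinj _ _ (by rw [hx, h5]))
            · exact Or.inr (hinj _ _ (by rw [hx, map_neg, h5]))
            · exact Or.inr (hinj _ _ (by rw [hx, map_neg, h5, neg_neg]))
            · exact Or.inl (hinj _ _ (by rw [hx, h5]))
          rcases hx' with rfl | rfl
          · exact Relation.ReflTransGen.refl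
          · refine Relation.ReflTransGen.single ⟨⟨s, hs', hx⟩, ?_⟩
            rw [cpr_neg cs _ _ ra, cpr_self cs _ ra]
            norm_num)
      exact key t ht b h6)
    (by
      rintro a ⟨s, hs', h5⟩
      obtain ⟨t, ht, h6⟩ := h2 s hs'
      refine ⟨t, ht, ?_⟩
      have h7 : lin l Mx (toF l (T.gam s)) = toF l (T.gam t) ∨ lin l Mx (toF l (T.gam s)) = -toF l (T.gam t) := by
        rw [lin_toF hM]
        rcases h6 with h6 | h6
        · exact Or.inl (toF_veq h6)
        · right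
          rw [toF_veq h6, toF_vsm, neg_one_smul]
      show rep cs hp.isCartan v (θ a) = _ ∨ rep cs hp.isCartan v (θ a) = _
      rw [hv']
      rcases h5 with h5 | h5
      · rw [h5]; exact h7
      · rw [h5, map_neg]
        rcases h7 with h7 | h7
        · right; rw [h7]
        · left; rw [h7, neg_neg])
  have hβS : β ∈ S := (hPS β).2 ⟨s, hQP s hsQ, hβs⟩
  refine ⟨β, hβS, hβ0, hβθ, ?_, hβtop⟩
  -- the neighbours
  have rs := root_gam cs hp.isCartan hT hA hR s (hQ s hsQ)
  have h5 : j ≤ cnt T P s := by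
    have := h4 s hsQ
    rwa [Nat.ble_eq] at this
  refine h5.trans ?_
  unfold cnt nb
  set L := P.filter fun t => adj T s t with hL
  have hLP : ∀ t ∈ L, t ∈ P ∧ adj T s t = true := fun t ht => by
    rw [hL, List.mem_filter] at ht
    exact ht
  -- the sign of `β`
  obtain ⟨ε, hε, hβε⟩ : ∃ ε : ℤ, (ε = 1 ∨ ε = -1) ∧ rep cs hp.isCartan v β = ε • toF l (T.gam s) := by
    rcases hβs with h | h
    · exact ⟨1, Or.inl rfl, by rw [h, one_smul]⟩
    · exact ⟨-1, Or.inr rfl, by rw [h, neg_one_smul]⟩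
  let f : ℕ → (Fin l → ℤ) := fun t => rep cs hp.isCartan v⁻¹
    ((ε * cpr cs hp.isCartan (toF l (T.gam t)) (toF l (T.gam s))) • toF l (T.gam t))
  have hf : ∀ t ∈ L, f t ∈ {b | b ∈ S ∧ IsRoot cs hp.isCartan (β - b)} := by
    intro t ht
    obtain ⟨htP, hst⟩ := hLP t ht
    have rt := root_gam cs hp.isCartan hT hA hR t (hP t htP)
    have h6 := adj_cpr hp cs hT hA hR hn (hQ s hsQ) hst
    refine ⟨(hPS _).2 ⟨t, htP, ?_⟩, ?_⟩
    · show rep cs hp.isCartan v (rep cs hp.isCartan v⁻¹ _) = _ ∨ rep cs hp.isCartan v (rep cs hp.isCartan v⁻¹ _) = _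
      rw [rep_apply_inv]
      rcases hε with rfl | rfl <;> rcases h6 with h6 | h6 <;> rw [h6] <;> norm_num
    · have h7 : IsRoot cs hp.isCartan (rep cs hp.isCartan v (β - f t)) := by
        rw [map_sub, hβε]
        show IsRoot cs hp.isCartan (ε • toF l (T.gam s) - rep cs hp.isCartan v (rep cs hp.isCartan v⁻¹ _))
        rw [rep_apply_inv]
        have h8 : cpr cs hp.isCartan (toF l (T.gam s)) (toF l (T.gam t)) =
            cpr cs hp.isCartan (toF l (T.gam t)) (toF l (T.gam s)) := hs _ _ rs rt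
        have h9 : IsRoot cs hp.isCartan (toF l (T.gam s) -
            cpr cs hp.isCartan (toF l (T.gam t)) (toF l (T.gam s)) • toF l (T.gam t)) := by
          rw [← h8]
          exact isRoot_refl cs _ rs rt
        rcases hε with rfl | rfl
        · rwa [one_smul, one_mul]
        · have := h9.neg
          rw [neg_one_smul, neg_one_mul, neg_smul]
          rwa [neg_sub, sub_eq_add_neg, add_comm, ← sub_neg_eq_add] at this
      have := h7.act v⁻¹
      rwa [rep_inv_apply] at this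
  have hinj : ∀ t ∈ L, ∀ t' ∈ L, f t = f t' → t = t' := by
    intro t ht t' ht' he
    obtain ⟨htP, hst⟩ := hLP t ht
    obtain ⟨htP', hst'⟩ := hLP t' ht'
    have h6 := adj_cpr hp cs hT hA hR hn (hQ s hsQ) hst
    have h6' := adj_cpr hp cs hT hA hR hn (hQ s hsQ) hst'
    have h7 := congrArg (rep cs hp.isCartan v) he
    simp only [f] at h7
    rw [rep_apply_inv, rep_apply_inv] at h7
    refine gam_ne hp cs hT hA hR hn hD (hP t htP) (hP t' htP') ?_
    rcases hε with rfl | rfl <;> rcases h6 with h6 | h6 <;> rcases h6' with h6' | h6' <;> rw [h6, h6'] at h7 <;>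
      norm_num at h7
    all_goals first
      | exact Or.inl h7
      | exact Or.inr h7
      | (left; simpa using h7)
      | (right; rw [← h7, neg_neg])
  have hLnd : L.Nodup := hnd.filter _
  have hcard : (L.toFinset.image f).card = L.length := by
    rw [Finset.card_image_of_injOn, List.toFinset_card_of_nodup hLnd]
    intro t ht t' ht' he
    exact hinj t (List.mem_toFinset.1 ht) t' (List.mem_toFinset.1 ht') he
  rw [← hcard, ← Set.ncard_coe_finset]
  refine Set.ncard_le_ncard ?_ ((Cfsg.Agent.Nodes.BNOf.RGD.finite_roots (cs := cs) (h := hp.isCartan)).subset fun b hb => hS.root b hb.1)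
  intro b hb
  rw [Finset.mem_coe, Finset.mem_image] at hb
  obtain ⟨t, ht, rfl⟩ := hb
  exact hf t (List.mem_toFinset.1 ht)

/-! ### the enumeration -/

theorem modz_iff {ℓ : ℕ} {v : Vc} : modz ℓ v = true ↔ ∀ k, (ℓ : ℤ) ∣ v.getD k 0 := by
  unfold modz
  rw [List.all_eq_true]
  constructor
  · intro h k
    by_cases hk : k < v.length
    · rw [List.getD_eq_getElem _ _ hk]
      have := h _ (List.getElem_mem hk)
      rw [beq_iff_eq] at this
      exact Int.dvd_of_emod_eq_zero this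
    · rw [List.getD_eq_default _ _ (not_lt.1 hk)]
      exact dvd_zero _
  · intro h x hx
    obtain ⟨k, hk, rfl⟩ := List.getElem_of_mem hx
    rw [beq_iff_eq]
    have := h k
    rw [List.getD_eq_getElem _ _ hk] at this
    exact Int.emod_eq_zero_of_dvd this

theorem allc_spec {ℓ : ℕ} {f : Vc → Bool} : ∀ (d : ℕ) (acc : Vc), allc ℓ d acc f = true → ∀ c : List ℕ,
    c.length = d → (∀ x ∈ c, x < ℓ) → f (c.foldl (fun (a : Vc) (x : ℕ) => (x : ℤ) :: a) acc) = true
  | 0, acc, h, c, hc, _ => by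
    have : c = [] := List.length_eq_zero_iff.1 hc
    subst this
    exact h
  | d + 1, acc, h, c, hc, hx => by
    match c, hc with
    | x :: c, hc =>
      unfold allc at h
      rw [List.all_eq_true] at h
      have h1 := h x (List.mem_range.2 (hx x List.mem_cons_self))
      exact allc_spec d _ h1 c (by simpa using hc) fun y hy => hx y (List.mem_cons_of_mem _ hy)

theorem foldl_cons (c : List ℕ) (acc : Vc) :
    c.foldl (fun (a : Vc) (x : ℕ) => (x : ℤ) :: a) acc = (c.map (fun x : ℕ => (x : ℤ))).reverse ++ acc := by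
  induction c generalizing acc with
  | nil => rfl
  | cons x c ih => simp [ih]

theorem osum_spec {l : ℕ} {Mx : List Vc} (hM : Mx.length ≤ l) : ∀ (n : ℕ) (v : Vc),
    toF l (osum Mx n v) = ∑ k ∈ Finset.range n, (lin l Mx)^[k] (toF l v)
  | 0, v => by simp [osum, toF_nil]
  | n + 1, v => by
    rw [osum, toF_vadd, osum_spec hM n, Finset.sum_range_succ', add_comm]
    simp only [Function.iterate_succ_apply, Function.iterate_zero_apply, lin_toF hM]

theorem lin_bv {l : ℕ} {Mx : List Vc} (hM : Mx.length ≤ l) (k : Fin l) :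
    lin l Mx (toF l (bv k)) = toF l (Mx.getD k []) := by
  rw [lin_apply, Finset.sum_eq_single k]
  · rw [toF_bv, Pi.single_eq_same, one_smul]
  · intro i _ hi
    rw [toF_bv, Pi.single_eq_of_ne hi, zero_smul]
  · intro h
    exact absurd (Finset.mem_univ k) h

/-- the value of a functional on a linear combination -/
theorem hom_lc {l : ℕ} {A : Type*} [AddCommGroup A] (b : (Fin l → ℤ) →+ A) : ∀ (c : Vc) (L : List Vc),
    b (toF l (lc c L)) = ∑ i ∈ Finset.range L.length, c.getD i 0 • b (toF l (L.getD i []))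
  | [], L => by
    cases L <;> simp [lc, toF_nil]
  | x :: a, [] => by simp [lc, toF_nil]
  | x :: a, v :: L => by
    rw [lc, toF_vadd, toF_vsm, map_add, map_zsmul, hom_lc b a L, List.length_cons, Finset.sum_range_succ']
    simp only [List.getD_cons_succ, List.getD_cons_zero]
    rw [add_comm]

theorem hom_toF {l : ℕ} {A : Type*} [AddCommGroup A] (b : (Fin l → ℤ) →+ A) (x : Vc) :
    b (toF l x) = ∑ i : Fin l, x.getD i 0 • b (Pi.single i 1) := by
  have e : toF l x = ∑ i : Fin l, x.getD i 0 • (Pi.single i 1 : Fin l → ℤ) := by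
    funext j
    simp [toF, Finset.sum_apply, Pi.single_apply]
  rw [e, map_sum]
  exact Finset.sum_congr rfl fun i _ => map_zsmul _ _ _

theorem hom_modz {l ℓ : ℕ} (b : (Fin l → ℤ) →+ ZMod ℓ) {v : Vc} (h : modz ℓ v = true) : b (toF l v) = 0 := by
  rw [hom_toF]
  refine Finset.sum_eq_zero fun i _ => ?_
  obtain ⟨m, hm⟩ := (modz_iff.1 h) i
  rw [hm, mul_smul, natCast_zsmul, nsmul_eq_mul, ZMod.natCast_self, zero_mul]

theorem getD_map_bv (F : List ℕ) (i : ℕ) (hi : i < F.length) : (F.map bv).getD i [] = bv (F.getD i 0) := by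
  rw [List.getD_eq_getElem _ _ (by simpa using hi), List.getD_eq_getElem _ _ hi, List.getElem_map]

/-- **One prime.** -/
theorem chkE_spec {T : Dat} (hT : T.l = l) (hgl : ∀ r, (T.gam r).length ≤ l) {q : ℤ} {Mx : List Vc} (hM : Mx.length ≤ l) {Z : List ℕ}
    {bad : ℕ → List ℕ → Bool} {e : Ent} [Fact e.ℓ.Prime] (h : chkE T q Mx Z bad e = true) (b : (Fin l → ℤ) →+ ZMod e.ℓ)
    (hb0 : ∃ x, b x ≠ 0) (hbM : ∀ x, b (lin l Mx x) = q • b x) (hZ : ∀ s ∈ Z, s < T.rts.length → b (toF l (T.gam s)) ≠ 0) :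
    ∃ P : List ℕ, P.Nodup ∧ (∀ s, s ∈ P ↔ s < T.rts.length ∧ b (toF l (T.gam s)) = 0) ∧
      (good6 T Mx P = true ∨ good2 T Mx P = true ∨ bad e.ℓ P = true) := by
  unfold chkE at h
  simp only [Bool.and_eq_true] at h
  obtain ⟨⟨⟨h1, h2⟩, h3⟩, h4⟩ := h
  rw [List.all_eq_true] at h1 h2
  rw [beq_iff_eq] at h3
  rw [hT] at h1
  have hmq : ∀ k : ℕ, b (toF l ((mq l Mx q).getD k [])) = 0 := by
    intro k
    unfold mq
    by_cases hk : k < l
    · rw [List.getD_eq_getElem _ _ (by simpa using hk), List.getElem_map, List.getElem_range, toF_vadd, toF_vsm, map_add,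
        map_zsmul]
      have h5 := lin_bv hM (⟨k, hk⟩ : Fin l)
      rw [← h5, hbM, neg_smul, add_neg_cancel]
    · rw [List.getD_eq_default _ _ (by simpa using hk), toF_nil, map_zero]
  have hbv : ∀ k : Fin l, b (toF l (bv k)) =
      ∑ i ∈ Finset.range e.F.length, (e.Bs.map fun v => v.getD k 0).getD i 0 • b (toF l (bv (e.F.getD i 0))) := by
    intro k
    have h5 := hom_modz b (h1 k (List.mem_range.2 k.2))
    rw [toF_vadd, toF_vadd, toF_vsm, map_add, map_add, map_zsmul, hom_lc b, hom_lc b,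
      Finset.sum_eq_zero (fun i _ => by rw [hmq i, smul_zero]), zero_add, neg_one_smul, List.length_map] at h5
    rw [neg_add_eq_zero.1 h5]
    refine Finset.sum_congr rfl fun i hi => ?_
    rw [getD_map_bv _ _ (Finset.mem_range.1 hi)]
  -- the coefficients
  let c : List ℕ := e.F.map fun f => (b (toF l (bv f))).val
  have hc1 : ∀ x ∈ c, x < e.ℓ := by
    intro x hx
    obtain ⟨f, -, rfl⟩ := List.mem_map.1 hx
    exact ZMod.val_lt _
  have hcl : c.length = e.Bs.length := by rw [h3, List.length_map]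
  have h5 := allc_spec _ _ h4 c.reverse (by rw [List.length_reverse, hcl]) fun x hx => hc1 x (List.mem_reverse.1 hx)
  rw [foldl_cons, List.append_nil, List.map_reverse, List.reverse_reverse] at h5
  set cz : Vc := c.map (fun x : ℕ => (x : ℤ)) with hcz
  have hcD : ∀ i, i < e.F.length → cz.getD i 0 = ((b (toF l (bv (e.F.getD i 0)))).val : ℤ) := by
    intro i hi
    rw [List.getD_eq_getElem _ _ (by simpa [hcz, c] using hi), List.getD_eq_getElem _ _ hi]
    simp [hcz, c]
  have hBk : ∀ k : Fin l, (((lc cz e.Bs).getD k 0 : ℤ) : ZMod e.ℓ) = b (Pi.single k 1) := by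
    intro k
    have h6 := hom_lc (Pi.evalAddMonoidHom (fun _ : Fin l => ℤ) k) cz e.Bs
    have h7 : (Pi.evalAddMonoidHom (fun _ : Fin l => ℤ) k) (toF l (lc cz e.Bs)) = (lc cz e.Bs).getD k 0 := rfl
    rw [h7] at h6
    rw [h6, ← toF_bv, hbv k, Int.cast_sum, h3]
    refine Finset.sum_congr rfl fun i hi => ?_
    have hi' := Finset.mem_range.1 hi
    rw [hcD i hi', smul_eq_mul, Int.cast_mul, Int.cast_natCast, ZMod.natCast_zmod_val, zsmul_eq_mul, mul_comm]
    congr 2
    show (e.Bs.getD i []).getD k 0 = (e.Bs.map fun v => v.getD k 0).getD i 0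
    have hi2 : i < e.Bs.length := by rw [h3]; exact hi'
    have hi3 : i < (e.Bs.map fun v => v.getD k 0).length := by rw [List.length_map]; exact hi2
    rw [List.getD_eq_getElem (e.Bs.map fun v => v.getD k 0) 0 hi3, List.getD_eq_getElem e.Bs [] hi2, List.getElem_map]
  have hphi : ∀ r, ((dot (T.gam r) (lc cz e.Bs) : ℤ) : ZMod e.ℓ) = b (toF l (T.gam r)) := by
    intro r
    rw [dot_eq_sum _ _ l (hgl r), hom_toF, Int.cast_sum, Finset.sum_range]
    refine Finset.sum_congr rfl fun k _ => ?_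
    rw [Int.cast_mul, hBk, zsmul_eq_mul]
  have hmem : ∀ s, s ∈ phi T e.ℓ (lc cz e.Bs) ↔ s < T.rts.length ∧ b (toF l (T.gam s)) = 0 := by
    intro s
    unfold phi
    rw [List.mem_filter, List.mem_range, beq_iff_eq, ← hphi, ZMod.intCast_zmod_eq_zero_iff_dvd]
    exact and_congr_right fun _ => ⟨Int.dvd_of_emod_eq_zero, Int.emod_eq_zero_of_dvd⟩
  rw [Bool.or_eq_true] at h5
  rcases h5 with h5 | h5
  · exfalso
    obtain ⟨x, hx⟩ := hb0
    apply hx
    have h6 : ∀ i, i < e.F.length → b (toF l (bv (e.F.getD i 0))) = 0 := by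
      intro i hi
      have h7 := (modz_iff.1 h5) i
      rw [hcD i hi] at h7
      have h8 := Int.natCast_dvd_natCast.1 h7
      exact (ZMod.val_eq_zero _).1 (Nat.eq_zero_of_dvd_of_lt h8 (ZMod.val_lt _))
    have h7 : ∀ k : Fin l, b (Pi.single k 1) = 0 := by
      intro k
      rw [← toF_bv, hbv k]
      exact Finset.sum_eq_zero fun i hi => by rw [h6 i (Finset.mem_range.1 hi), smul_zero]
    exact hom_ext (ψ := 0) h7 x
  · refine ⟨phi T e.ℓ (lc cz e.Bs), List.nodup_range.filter _, hmem, ?_⟩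
    simp only [Bool.or_eq_true, List.any_eq_true, List.contains_iff_mem] at h5
    rcases h5 with ((⟨s, hs1, hs2⟩ | h5) | h5) | h5
    · exact absurd ((hmem s).1 hs1).2 (hZ s hs2 ((hmem s).1 hs1).1)
    · exact Or.inl h5
    · exact Or.inr (Or.inl h5)
    · exact Or.inr (Or.inr h5)

/-- **One class.** -/
theorem chkCl_spec {T : Dat} (hT : T.l = l) (hgl : ∀ r, (T.gam r).length ≤ l) {q : ℤ} {Mx : List Vc} (hM : Mx.length ≤ l)
    {bad : ℕ → List ℕ → Bool} {c : Cls} (h : chkCl T q Mx bad c = true) {ℓ : ℕ} [hℓ : Fact ℓ.Prime]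
    (b : (Fin l → ℤ) →+ ZMod ℓ) (hb0 : ∃ x, b x ≠ 0) (hbM : ∀ x, b (lin l Mx x) = q • b x)
    (hpos : ∀ s < T.rts.length, b (toF l (T.gam s)) = 0 → ∀ n, 0 < n →
      ∑ k ∈ Finset.range n, (lin l Mx)^[k] (toF l (T.gam s)) ≠ 0) :
    ∃ P : List ℕ, P.Nodup ∧ (∀ s, s ∈ P ↔ s < T.rts.length ∧ b (toF l (T.gam s)) = 0) ∧
      (good6 T Mx P = true ∨ good2 T Mx P = true ∨ bad ℓ P = true) := by
  unfold chkCl at h
  simp only [Bool.and_eq_true] at h
  obtain ⟨⟨⟨⟨⟨h1, h2⟩, h3⟩, h4⟩, h5⟩, h6⟩ := h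
  rw [List.all_eq_true] at h1 h4 h5 h6
  rw [hT] at h1
  have hmq : ∀ k : ℕ, b (toF l ((mq l Mx q).getD k [])) = 0 := by
    intro k
    unfold mq
    by_cases hk : k < l
    · rw [List.getD_eq_getElem _ _ (by simpa using hk), List.getElem_map, List.getElem_range, toF_vadd, toF_vsm, map_add,
        map_zsmul]
      have h5 := lin_bv hM (⟨k, hk⟩ : Fin l)
      rw [← h5, hbM, neg_smul, add_neg_cancel]
    · rw [List.getD_eq_default _ _ (by simpa using hk), toF_nil, map_zero]
  have hTb : ∀ k : Fin l, (c.T : ZMod ℓ) * b (Pi.single k 1) = 0 := by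
    intro k
    have h7 := toF_veq (l := l) (h1 k (List.mem_range.2 k.2))
    have h8 := congrArg b h7
    rw [hom_lc b, Finset.sum_eq_zero (fun i _ => by rw [hmq i, smul_zero]), toF_vsm, map_zsmul, toF_bv,
      natCast_zsmul, nsmul_eq_mul] at h8
    exact h8.symm
  obtain ⟨k, hk⟩ : ∃ k : Fin l, b (Pi.single k 1) ≠ 0 := by
    by_contra hcon
    push Not at hcon
    obtain ⟨x, hx⟩ := hb0
    exact hx (hom_ext (ψ := 0) hcon x)
  have hdvd : ℓ ∣ c.T := by
    rw [← ZMod.natCast_eq_zero_iff]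
    exact (mul_eq_zero.1 (hTb k)).resolve_right hk
  have h7 : c.T ∣ (c.es.map fun e => e.ℓ).prod ^ 6 := Nat.dvd_of_mod_eq_zero (by simpa using h2)
  have h8 : ℓ ∣ (c.es.map fun e => e.ℓ).prod := hℓ.out.dvd_of_dvd_pow (hdvd.trans h7)
  obtain ⟨x, hx, h9⟩ := (Nat.Prime.prime hℓ.out).dvd_prod_iff.1 h8
  obtain ⟨e, he, rfl⟩ := List.mem_map.1 hx
  have hep : e.ℓ.Prime := by
    have h := h4 e he
    simp only [List.contains_iff_mem, List.mem_cons, List.not_mem_nil, or_false] at h
    rcases h with h | h | h | h | h | h | h | h | h | h <;> rw [h] <;> norm_num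
  have h10 : ℓ = e.ℓ := (Nat.prime_dvd_prime_iff_eq hℓ.out hep).1 h9
  subst h10
  refine chkE_spec hT hgl hM (h6 e he) b hb0 hbM fun s hs' hs1 hb => ?_
  have h11 := h5 s hs'
  simp only [Bool.and_eq_true] at h11
  refine hpos s hs1 hb c.n (by simpa [Nat.blt_eq] using h3) ?_
  rw [← osum_spec hM]
  funext i
  exact nz_getD _ h11.2 i

/-- the output for the bad cases -/
structure BadOut (hp : IsType D l M) (cs : CoxeterSystem M W) (T : Dat) (ε : ℤ) (bad : ℕ → ℕ → List ℕ → Bool) (ℓ : ℕ)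
    (S : Set (Fin l → ℤ)) (θ : (Fin l → ℤ) ≃+ (Fin l → ℤ)) (v : W) (i : ℕ) (P : List ℕ) : Prop where
  lt : i < T.reps.length
  conj : ∀ x, rep cs hp.isCartan v (θ (rep cs hp.isCartan v⁻¹ x)) = lin l ((T.R i).map (vsm ε)) x
  nodup : P.Nodup
  len : ∀ s ∈ P, s < T.rts.length
  mem : ∀ a, a ∈ S ↔ InP hp cs T v P a
  bad : bad i ℓ P = true

/-- closed sets given by a functional -/
theorem rset_ker {ℓ : ℕ} (b : (Fin l → ℤ) →+ ZMod ℓ) {S : Set (Fin l → ℤ)}
    (hS : ∀ a, a ∈ S ↔ IsRoot cs hp.isCartan a ∧ b a = 0) : RSet cs hp.isCartan S where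
  root a ha := ((hS a).1 ha).1
  neg a ha := (hS _).2 ⟨((hS a).1 ha).1.neg, by rw [map_neg, ((hS a).1 ha).2, neg_zero]⟩
  add a ha c hc h := (hS _).2 ⟨h, by rw [map_add, ((hS a).1 ha).2, ((hS c).1 hc).2, add_zero]⟩
  refl a ha c hc := (hS _).2 ⟨isRoot_refl cs _ ((hS a).1 ha).1 ((hS c).1 hc).1, by
    rw [map_sub, map_zsmul, ((hS a).1 ha).2, ((hS c).1 hc).2, smul_zero, sub_zero]⟩

include hT hA hR hn hD hs in
/-- **The table theorem.** -/
theorem tab (hP : T.chkP = true) (hC : T.chkC = true) (hlen : ∀ i, (T.R i).length ≤ l) {ε q : ℤ}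
    {bad : ℕ → ℕ → List ℕ → Bool} {cls : List Cls}
    (hcls : ((List.range T.reps.length).all fun i => chkCl T q ((T.R i).map (vsm ε)) (bad i) (cls.getD i ⟨1, [], 1, [], []⟩)) = true)
    {ℓ : ℕ} [hℓ : Fact ℓ.Prime] (w : W) {θ : (Fin l → ℤ) ≃+ (Fin l → ℤ)} (hθ : ∀ x, θ x = ε • rep cs hp.isCartan w x)
    (b : (Fin l → ℤ) →+ ZMod ℓ) (hb0 : ∃ x, b x ≠ 0) (hbθ : ∀ x, b (θ x) = q • b x) {S : Set (Fin l → ℤ)}
    (hS : ∀ a, a ∈ S ↔ IsRoot cs hp.isCartan a ∧ b a = 0) (hTS : TSet cs hp.isCartan S θ) :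
    (∃ β ∈ S, 0 ≤ β ∧ θ β = β ∧ 6 ≤ nb cs hp.isCartan S β ∧ ∀ a ∈ S, 0 ≤ a → ¬ IsRoot cs hp.isCartan (β + a)) ∨
      ((∀ a ∈ S, θ a = a) ∧
        ∃ β ∈ S, 0 ≤ β ∧ θ β = β ∧ 2 ≤ nb cs hp.isCartan S β ∧ ∀ a ∈ S, 0 ≤ a → ¬ IsRoot cs hp.isCartan (β + a)) ∨
      ∃ v i P, BadOut hp cs T ε bad ℓ S θ v i P := by
  obtain ⟨v, i, hi, hv0⟩ := exists_conj cs hp.isCartan hT hA hR hC w
  have hgl : ∀ r, (T.gam r).length ≤ l := fun r => hT ▸ gam_length hP r
  set Mx := (T.R i).map (vsm ε) with hMx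
  have hM : Mx.length ≤ l := by rw [hMx, List.length_map]; exact hlen i
  have hv : ∀ x, rep cs hp.isCartan v (θ (rep cs hp.isCartan v⁻¹ x)) = lin l Mx x := by
    intro x
    rw [hθ, map_zsmul, hv0, hMx, lin_vsm]
  have hv' : ∀ x, θ (rep cs hp.isCartan v⁻¹ x) = rep cs hp.isCartan v⁻¹ (lin l Mx x) := by
    intro x
    rw [← hv, rep_inv_apply]
  have hRS := rset_ker (hp := hp) (cs := cs) b hS
  let b' : (Fin l → ℤ) →+ ZMod ℓ := b.comp (rep cs hp.isCartan v⁻¹).toAddMonoidHom
  have hb' : ∀ x, b' x = b (rep cs hp.isCartan v⁻¹ x) := fun x => rfl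
  rw [List.all_eq_true] at hcls
  have hit : ∀ (n : ℕ) (x : Fin l → ℤ), (lin l Mx)^[n] x = rep cs hp.isCartan v (θ^[n] (rep cs hp.isCartan v⁻¹ x)) := by
    intro n
    induction n with
    | zero => intro x; rw [Function.iterate_zero_apply, Function.iterate_zero_apply, rep_apply_inv]
    | succ n ih =>
      intro x
      rw [Function.iterate_succ_apply, Function.iterate_succ_apply, ih, hv']
  obtain ⟨P, hnd, hPm, hP3⟩ := chkCl_spec hT hgl hM (hcls i (List.mem_range.2 hi)) b' (by
      obtain ⟨x, hx⟩ := hb0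
      refine ⟨rep cs hp.isCartan v x, ?_⟩
      rw [hb', rep_inv_apply]
      exact hx)
    (fun x => by rw [hb', hb', ← hv', hbθ])
    (by
      intro s hs1 hb n hn0 h0
      set a := rep cs hp.isCartan v⁻¹ (toF l (T.gam s)) with ha
      have ra : IsRoot cs hp.isCartan a := (root_gam cs hp.isCartan hT hA hR s hs1).act _
      have haS : a ∈ S := (hS a).2 ⟨ra, hb⟩
      have h1 : ∑ k ∈ Finset.range n, (θ^[k] a) = 0 := by
        have h2 : rep cs hp.isCartan v (∑ k ∈ Finset.range n, (θ^[k] a)) = 0 := by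
          rw [map_sum, ← h0]
          exact Finset.sum_congr rfl fun k _ => (hit k _).symm
        have h3 := congrArg (rep cs hp.isCartan v⁻¹) h2
        rwa [rep_inv_apply, map_zero] at h3
      have key : ∀ c ∈ S, 0 ≤ c → ∀ k, θ^[k] c ∈ S ∧ 0 ≤ θ^[k] c := by
        intro c hc h0c k
        induction k with
        | zero => exact ⟨hc, h0c⟩
        | succ k ih =>
          rw [Function.iterate_succ_apply']
          exact ⟨(hTS.mem _).2 ih.1, hTS.pos _ ih.1 ih.2⟩
      have key2 : ∀ c ∈ S, 0 ≤ c → ∑ k ∈ Finset.range n, (θ^[k] c) = 0 → False := by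
        intro c hc h0c hsum
        have h4 : c ≤ ∑ k ∈ Finset.range n, (θ^[k] c) :=
          Finset.single_le_sum (f := fun k => θ^[k] c) (fun k _ => (key c hc h0c k).2) (Finset.mem_range.2 hn0)
        rw [hsum] at h4
        exact (hRS.root c hc).ne_zero (le_antisymm h4 h0c)
      rcases ra.pos_or_neg with h5 | h5
      · exact key2 a haS h5 h1
      · refine key2 (-a) (hRS.neg a haS) (neg_nonneg.2 h5) ?_
        have h6 : ∀ k, θ^[k] (-a) = -θ^[k] a := by
          intro k
          induction k with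
          | zero => rfl
          | succ k ih => rw [Function.iterate_succ_apply', Function.iterate_succ_apply', ih, map_neg]
        rw [Finset.sum_congr rfl fun k _ => h6 k, Finset.sum_neg_distrib, h1, neg_zero])
  have hPlen : ∀ s ∈ P, s < T.rts.length := fun s hs' => ((hPm s).1 hs').1
  have hPS : ∀ a, a ∈ S ↔ InP hp cs T v P a := by
    intro a
    rw [hS]
    constructor
    · rintro ⟨ra, hba⟩
      obtain ⟨c, hc, h1⟩ := exists_gam' cs hp.isCartan hT hA hR (ra.act v)
      obtain ⟨r, hr, e1, -⟩ := exists_lt_of_mem hc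
      rw [← e1] at h1
      refine ⟨r, (hPm r).2 ⟨hr, ?_⟩, h1⟩
      have h2 : b' (rep cs hp.isCartan v a) = 0 := by rw [hb', rep_inv_apply]; exact hba
      rcases h1 with h1 | h1
      · rwa [← h1]
      · rw [h1, map_neg, neg_eq_zero] at h2
        exact h2
    · intro h
      refine ⟨InP.root (hp := hp) (cs := cs) hT hA hR hPlen h, ?_⟩
      obtain ⟨s, hs', h1⟩ := h
      have h2 := ((hPm s).1 hs').2
      have h3 : b' (rep cs hp.isCartan v a) = 0 := by
        rcases h1 with h1 | h1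
        · rw [h1]; exact h2
        · rw [h1, map_neg, h2, neg_zero]
      rwa [hb', rep_inv_apply] at h3
  rcases hP3 with h | h | h
  · left
    exact good_out hT hA hR hn hD hs hRS hTS hM hv hPlen hnd hPS h
  · right; left
    unfold good2 at h
    rw [Bool.and_eq_true, List.all_eq_true] at h
    refine ⟨?_, good_out hT hA hR hn hD hs hRS hTS hM hv hPlen hnd hPS h.2⟩
    intro a ha
    obtain ⟨s, hs', h1⟩ := (hPS a).1 ha
    have h2 : lin l Mx (toF l (T.gam s)) = toF l (T.gam s) := by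
      rw [lin_toF hM]
      exact toF_veq (h.1 s hs')
    have h3 : rep cs hp.isCartan v (θ a) = rep cs hp.isCartan v a := by
      have h4 := hv (rep cs hp.isCartan v a)
      rw [rep_inv_apply] at h4
      rw [h4]
      rcases h1 with h1 | h1
      · rw [h1, h2]
      · rw [h1, map_neg, h2]
    have := congrArg (rep cs hp.isCartan v⁻¹) h3
    rwa [rep_inv_apply, rep_inv_apply] at this
  · right; right
    exact ⟨v, i, P, hi, hv, hnd, hPlen, hPS, h⟩

end Sem

end Cfsg.Agent.H106.QT
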