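import Cfsg.Agent.H106.QT.E6Two
import Cfsg.Agent.H169.RG.Toral
import Cfsg.Agent.H931.KC.Tor
import Cfsg.Agent.H720.TwFr

/-!
# S3509: the elements of prime order of `E₆(2)` and `²E₆(2)` (helper106)

`exists_b` : the functional of a toral element of prime order; `use_P`, `use_N` : the tables `clsP`, `clsN` for a toral form.
-/

set_option autoImplicit false
set_option linter.unusedSectionVars false

namespace Cfsg.Agent.H106.QT

open CoxeterSystem Cfsg Cfsg.Lie Cfsg.Lie.ChevalleyDatum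
open Cfsg.Agent.ChevalleyStructure Cfsg.Agent.ChevalleyStructure.Elts Cfsg.Agent.ChevalleyStructure.CoxeterGeom
  Cfsg.Agent.ChevalleyStructure.CoxeterGeomTypes Cfsg.Agent.ChevalleyStructure.NPerm
open Cfsg.Agent.Tits.Roots Cfsg.Agent.Tits.Core Cfsg.Agent.Nodes Cfsg.Agent.Nodes.Reps Cfsg.Agent.Nodes.RGDChev
  Cfsg.Agent.Nodes.Coroot Cfsg.Agent.KFacts.RgdSL Cfsg.Agent.KFacts.RgdField Cfsg.Agent.KFacts.RgdChevCoord
open Cfsg.Agent.BpExc Cfsg.Agent.BpExc.TorCent Cfsg.Agent.BpExc.TorChev Cfsg.Agent.BpExc.LangFr Cfsg.Agent.H129.TorusChar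
open Cfsg.Agent.H469.Exc Cfsg.Agent.H316.U6 Cfsg.Agent.H169.RG
open Cfsg.Agent.H378.Eng Cfsg.Agent.H378.WL Cfsg.Agent.H165.WL Cfsg.Agent.H76.RG Cfsg.Agent.H460.OT
open Cfsg.Agent.H378.E6Dat (dat)

universe v

section Gen

variable {D : ChevalleyDatum} {l : ℕ} {M : CoxeterMatrix (Fin l)} {hp : IsType D l M} {r q : ℕ} [hr : Fact r.Prime]
  {K₀ : Type v} [Group K₀] {m : MData hp r q K₀} {s : ↥(D.group (KK r))}

/-- **The functional of a toral element of prime order.** -/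
theorem exists_b (f : TorForm m s) {ℓ : ℕ} [hℓ : Fact ℓ.Prime] (hlr : ℓ ≠ r) (hs1 : s ≠ 1) (hsl : s ^ ℓ = 1) :
    ∃ b : (Fin l → ℤ) →+ ZMod ℓ, (∃ x, b x ≠ 0) ∧ (∀ x, b (f.θ x) = (q : ℤ) • b x) ∧
      ∀ a, a ∈ Sx M.toCoxeterSystem hp.isCartan (ch hp) f.t ↔ IsRoot M.toCoxeterSystem hp.isCartan a ∧ b a = 0 := by
  have hℓ0 : 0 < ℓ := hℓ.out.pos
  have hnk : ((ℓ : ℕ) : KK r) ≠ 0 := by
    intro h
    rw [CharP.cast_eq_zero_iff (KK r) r] at h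
    exact hlr ((Nat.prime_dvd_prime_iff_eq hr.out hℓ.out).1 h).symm
  have : NeZero (ℓ : KK r) := ⟨hnk⟩
  obtain ⟨ζ, hζ⟩ := HasEnoughRootsOfUnity.exists_primitiveRoot (KK r) ℓ
  have htl : f.t ^ ℓ = 1 := f.pow_eq_one hsl
  obtain ⟨b0, hb0⟩ := H931.KC.exists_exp hp hℓ0 hζ f.mem htl
  let b : (Fin l → ℤ) →+ ZMod ℓ := (Int.castAddHom (ZMod ℓ)).comp b0
  have hb : ∀ x, b x = ((b0 x : ℤ) : ZMod ℓ) := fun x => rfl
  have key : ∀ x, b x = 0 ↔ cX hp f.t x = 1 := by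
    intro x
    rw [hb, hb0, hζ.zpow_eq_one_iff_dvd, ZMod.intCast_zmod_eq_zero_iff_dvd]
  refine ⟨b, ?_, ?_, ?_⟩
  · by_contra hcon
    push Not at hcon
    have h1 : f.t = 1 := by
      refine cX_inj hp f.mem (one_mem _) fun i => ?_
      rw [(key _).1 (hcon _), cX_one]
    apply hs1
    rw [f.eq, h1]
    group
  · intro x
    have h1 := cX_sigma hp M.toCoxeterSystem f.frob f.fr f.mem x
    rw [f.fix, hb0, hb0, m.hq] at h1
    rw [hb, hb, zsmul_eq_mul]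
    have h2 : ζ ^ (b0 (f.θ x) - q * b0 x) = 1 := by
      have hζ0 : ζ ≠ 0 := hζ.ne_zero hℓ0.ne'
      rw [zpow_sub₀ hζ0, h1, mul_comm, zpow_mul, zpow_natCast, div_self]
      exact pow_ne_zero _ (zpow_ne_zero _ hζ0)
    rw [hζ.zpow_eq_one_iff_dvd, ← ZMod.intCast_zmod_eq_zero_iff_dvd] at h2
    push_cast at h2 ⊢
    exact sub_eq_zero.1 h2
  · intro a
    constructor
    · rintro ⟨ha, h1⟩
      exact ⟨ha, (key a).2 (by rw [cX_root hp M.toCoxeterSystem f.mem ha]; exact h1)⟩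
    · rintro ⟨ha, h1⟩
      exact ⟨ha, by rw [← cX_root hp M.toCoxeterSystem f.mem ha]; exact (key a).1 h1⟩

/-- the set of the roots killed by `t` -/
theorem tset (f : TorForm m s) : TSet M.toCoxeterSystem hp.isCartan (Sx M.toCoxeterSystem hp.isCartan (ch hp) f.t) f.θ :=
  ⟨f.fr.root, f.stab, f.pos⟩

end Gen

/-! ### `E₆` -/

theorem eq_E6 {M : CoxeterMatrix (Fin 6)} (hp : IsType chevE6 6 M) : M = CoxeterMatrix.E₆ := by
  simp only [IsType, typeList, List.mem_cons, List.not_mem_nil, or_false, Prod.mk.injEq] at hp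
  rcases hp with ⟨h, e⟩ | ⟨h, e⟩ | ⟨h, e⟩ | ⟨h, e⟩ | ⟨h, e⟩ | ⟨h, e⟩ | ⟨h, e⟩
  all_goals first
    | exact eq_of_heq (Sigma.mk.inj e).2
    | exact absurd (congrArg Sigma.fst e) (by norm_num)

set_option backward.isDefEq.respectTransparency false in
theorem n6 : (∀ i j, CoxeterMatrix.E₆ i j ≠ 4) ∧ ∀ i j, CoxeterMatrix.E₆ i j ≠ 6 := by
  constructor <;> decide +kernel

section E6

variable {M : CoxeterMatrix (Fin 6)} (hp : IsType chevE6 6 M)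

theorem sl6 {W : Type*} [Group W] (cs : CoxeterSystem M W) : SL cs hp.isCartan := by
  have := finite_W hp cs
  obtain rfl := eq_E6 hp
  exact fun _ _ hx hy => Nodes.SimplyLaced.cpr_symm cs _ n6.1 n6.2 hx hy

theorem len6 (i : ℕ) : (dat.R i).length ≤ 6 := by
  by_cases hi : i < 25
  · have h3 : (List.range 25).all (fun i => decide ((dat.R i).length ≤ 6)) = true := by decide +kernel
    rw [List.all_eq_true] at h3
    simpa using h3 i (List.mem_range.2 hi)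
  · have h4 : dat.R i = dat.R 25 := by
      unfold Dat.R
      rw [List.getD_eq_default _ _ (by
        have : dat.reps.length = 25 := by decide +kernel
        omega), List.getD_eq_default _ _ (by
        have : dat.reps.length = 25 := by decide +kernel
        omega)]
    have h5 : (dat.R 25).length ≤ 6 := by decide +kernel
    rw [h4]; exact h5

variable {hp} {q : ℕ} {K₀ : Type v} [Group K₀]

/-- **`E₆(2)`** -/
theorem use_P {m : MData hp 2 2 K₀} (hg : m.g = AddEquiv.refl _) {s : ↥(chevE6.group (KK 2))} (f : TorForm m s)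
    {ℓ : ℕ} [hℓ : Fact ℓ.Prime] (hl2 : ℓ ≠ 2) (hs1 : s ≠ 1) (hsl : s ^ ℓ = 1) {S : Set (Fin 6 → ℤ)}
    (hS : S = Sx M.toCoxeterSystem hp.isCartan (ch hp) f.t) :
    (∃ β ∈ S, 0 ≤ β ∧ f.θ β = β ∧ 6 ≤ nb M.toCoxeterSystem hp.isCartan S β ∧
        ∀ a ∈ S, 0 ≤ a → ¬ IsRoot M.toCoxeterSystem hp.isCartan (β + a)) ∨
      ((∀ a ∈ S, f.θ a = a) ∧
        ∃ β ∈ S, 0 ≤ β ∧ f.θ β = β ∧ 2 ≤ nb M.toCoxeterSystem hp.isCartan S β ∧
          ∀ a ∈ S, 0 ≤ a → ¬ IsRoot M.toCoxeterSystem hp.isCartan (β + a)) ∨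
      ∃ v i P, BadOut hp M.toCoxeterSystem dat 1 badP ℓ S f.θ v i P := by
  have := finite_W hp M.toCoxeterSystem
  obtain ⟨b, h1, h2, h3⟩ := exists_b f hl2 hs1 hsl
  refine tab (l := 6) rfl E6.row H378.E6Dat.chkR E6.chkN chkD_dat (sl6 hp M.toCoxeterSystem) H378.E6Dat.chkP H378.E6Dat.chkC len6 chkP_all f.w
    (fun x => ?_) b h1 h2 (by rw [hS]; exact h3) (by rw [hS]; exact tset f)
  rw [one_smul, f.hθ, hg]
  rfl

/-- **`²E₆(2)`** -/
theorem use_N {m : MData hp 2 2 K₀} (hg : m.g = H720.TwFr.permE H720.TwFr.rho6) {s : ↥(chevE6.group (KK 2))}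
    (f : TorForm m s) {ℓ : ℕ} [hℓ : Fact ℓ.Prime] (hl2 : ℓ ≠ 2) (hs1 : s ≠ 1) (hsl : s ^ ℓ = 1) {S : Set (Fin 6 → ℤ)}
    (hS : S = Sx M.toCoxeterSystem hp.isCartan (ch hp) f.t) :
    (∃ β ∈ S, 0 ≤ β ∧ f.θ β = β ∧ 6 ≤ nb M.toCoxeterSystem hp.isCartan S β ∧
        ∀ a ∈ S, 0 ≤ a → ¬ IsRoot M.toCoxeterSystem hp.isCartan (β + a)) ∨
      ((∀ a ∈ S, f.θ a = a) ∧
        ∃ β ∈ S, 0 ≤ β ∧ f.θ β = β ∧ 2 ≤ nb M.toCoxeterSystem hp.isCartan S β ∧
          ∀ a ∈ S, 0 ≤ a → ¬ IsRoot M.toCoxeterSystem hp.isCartan (β + a)) ∨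
      ∃ v i P, BadOut hp M.toCoxeterSystem dat (-1) badN ℓ S f.θ v i P := by
  have := finite_W hp M.toCoxeterSystem
  obtain ⟨b, h1, h2, h3⟩ := exists_b f hl2 hs1 hsl
  obtain ⟨w₀, h0⟩ := E6.exists_w0 hp M.toCoxeterSystem
  refine tab (l := 6) rfl E6.row H378.E6Dat.chkR E6.chkN chkD_dat (sl6 hp M.toCoxeterSystem) H378.E6Dat.chkP H378.E6Dat.chkC len6 chkN_all
    (f.w * w₀) (fun x => ?_) b h1 h2 (by rw [hS]; exact h3) (by rw [hS]; exact tset f)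
  rw [f.hθ, hg, rep_mul_apply, ← map_zsmul]
  congr 1
  funext i
  rw [Pi.smul_apply, h0, smul_eq_mul, neg_one_mul, neg_neg]
  rfl

end E6

end Cfsg.Agent.H106.QT
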